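import Cfsg.Agent.H3.S8h
import Cfsg.Agent.H7.AutAlt
import Cfsg.Prelude.Def_Local

/-! From an alternating subgroup of index two to the symmetric group. -/

set_option autoImplicit false
open Subgroup Equiv H3S

namespace H4.S8

variable {G : Type*} [Group G] [Finite G] {φ : P →* G} {σ : G}

theorem s8 (h : Hy φ σ) (N : Subgroup G) (hN : N.index = 2) (e : N ≃* alternatingGroup (Fin 8)) :
    Nonempty (G ≃* Perm (Fin 8)) := by
  have := normal_of_index_eq_two hN
  let f : G →* MulAut (alternatingGroup (Fin 8)) :=
    (MulAut.congr e).toMonoidHom.comp MulAut.conjNormal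
  have hf : Function.Injective f := by
    refine (MulAut.congr e).injective.comp ((injective_iff_map_eq_one
      (MulAut.conjNormal : G →* MulAut N)).2 fun g hg => ?_)
    have c : ∀ k ∈ N, g * k = k * g := fun k hk => by
      have := congrArg (fun f : MulAut N => (f ⟨k, hk⟩ : G)) hg
      simp only [MulAut.conjNormal_apply, MulAut.one_apply] at this
      exact mul_inv_eq_iff_eq_mul.1 this
    by_cases hg : g ∈ N
    · have : e ⟨g, hg⟩ ∈ center _ := mem_center_iff.2 fun x => by
        obtain ⟨y, rfl⟩ := e.surjective x
        rw [← map_mul, ← map_mul]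
        exact congrArg e (Subtype.ext (c y y.2).symm)
      rw [alternatingGroup.center_eq_bot (by simp), mem_bot, MulEquiv.map_eq_one_iff] at this
      exact congrArg Subtype.val this
    have c' : ∀ k, g * k = k * g := fun k => by
      by_cases hk : k ∈ N
      · exact c k hk
      · have := c (g * k) ((mul_mem_iff_of_index_two hN).2 (iff_of_false hg hk))
        rwa [mul_assoc, mul_right_inj] at this
    obtain ⟨p, rfl⟩ := h.nz g (by rw [c', mul_inv_cancel_right]; exact mem_zpowers _)
    have k : ∀ q, p * q = q * p := fun q => h.inj (by rw [map_mul, map_mul, c'])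
    have k1 : ∀ a : Perm (Fin 3), a * z0.1 = z0.1 * a → a * r0.1 = r0.1 * a → a = 1 := by decide
    have k2 : ∀ a : Perm (Fin 5), a * z1.2 = z1.2 * a → a * r1.2 = r1.2 * a → a * v0.2 = v0.2 * a →
      a = 1 := by decide +kernel
    rw [show p = 1 from Prod.ext (k1 _ (congrArg Prod.fst (k z0)) (congrArg Prod.fst (k r0)))
      (k2 _ (congrArg Prod.snd (k z1)) (congrArg Prod.snd (k r1)) (congrArg Prod.snd (k v0))), map_one]
  let c : Perm (Fin 8) →* MulAut (alternatingGroup (Fin 8)) := MulAut.conjNormal
  have hc : Function.Surjective c := fun α => by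
    obtain ⟨s, hs⟩ := H7.exists_conj_of_aut (by simp) (by simp) α
    exact ⟨s, MulEquiv.ext fun g => Subtype.ext (hs g).symm⟩
  have : Finite (MulAut (alternatingGroup (Fin 8))) := Finite.of_surjective c hc
  have h1 : Nat.card G = Nat.card (Perm (Fin 8)) := by
    rw [← N.card_mul_index, hN, Nat.card_congr e.toEquiv, ← (alternatingGroup (Fin 8)).card_mul_index,
      alternatingGroup.index_eq_two]
  have h2 := Nat.card_le_card_of_injective f hf
  have h3 := Nat.card_le_card_of_surjective c hc
  exact ⟨(MulEquiv.ofBijective f ((Nat.bijective_iff_injective_and_card _).2 ⟨hf, by omega⟩)).trans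
    (MulEquiv.ofBijective c ((Nat.bijective_iff_surjective_and_card _).2 ⟨hc, by omega⟩)).symm⟩

end H4.S8
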