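import Cfsg.Agent.H4.UG2
import Cfsg.Agent.H2.V1
import Cfsg.Agent.H10.Dd
import Cfsg.Agent.H25.Wc2
import Cfsg.Agent.H29.Sp
import Cfsg.Agent.H29.U33M
import Cfsg.Agent.H27.Rd
import Cfsg.Agent.H8.M6
import Cfsg.Agent.H13.E36
import Cfsg.Agent.S1057
import Cfsg.Agent.S0283
import Cfsg.Agent.S0815

/-! Groups of order 12096 with the element orders of G₂(2). -/

set_option autoImplicit false

namespace H4.UG

open Cfsg Subgroup

universe u

theorem am {G : Type u} [Group G] [Finite G] [IsSimpleGroup G] (h : Nat.card G = 6048)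
    (hs : ∀ g : G, g ^ 7 = 1 ∨ g ^ 8 = 1 ∨ g ^ 12 = 1) :
    ∃ (S : Subgroup G) (x y t c d : G), Am S x y t c d := by
  obtain ⟨hr, hC⟩ := H2.V1.v1 h hs
  obtain ⟨S, x, y, t, c, w, c3, cx, cy, tc⟩ := H25.Wc2.wc h hs hr
  obtain ⟨d, d3, dz, di, dj, xd⟩ := H10.Dd.dd h hs hC S w
  exact ⟨S, x, y, t, c, d, w, c3, cx, cy, tc, d3, dz, di, dj, xd⟩

theorem aut {Q : Type} [Group Q] [Finite Q] [IsSimpleGroup Q] (hQ : Nat.card Q = 6048)
    (sQ : ∀ g : Q, g ^ 7 = 1 ∨ g ^ 8 = 1 ∨ g ^ 12 = 1) (aQ : Nat.card (MulAut Q) = 12096)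
    {G : Type u} [Group G] [Finite G] (h : Nat.card G = 12096)
    (hs : ∀ g : G, g ^ 7 = 1 ∨ g ^ 8 = 1 ∨ g ^ 12 = 1) : Nonempty (G ≃* MulAut Q) := by
  obtain ⟨K, hn, hK, cK, zK⟩ := H27.Rd.red'
    (fun _ _ _ _ hp h => H8M6.orders0 (H2.sm_noncomm_of_card hp) h H13.E36.no3600)
    (fun _ _ _ _ => H2.filt_ne (n := 12096) (by norm_num) (1, 7) (by decide +kernel)) h hs
  have sK : ∀ g : K, g ^ 7 = 1 ∨ g ^ 8 = 1 ∨ g ^ 12 = 1 := fun g => by
    simpa [Subtype.ext_iff] using hs g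
  obtain ⟨_, _, _, _, _, _, a⟩ := am cK sK
  obtain ⟨_, _, _, _, _, _, b⟩ := am hQ sQ
  obtain ⟨e⟩ := iso hQ sQ b cK sK a
  have hi : Function.Injective (MulAut.conjNormal : G →* MulAut K) := by
    rw [injective_iff_map_eq_one]
    intro g hg
    rw [← mem_bot, ← zK, mem_centralizer_iff]
    intro k hk
    have := congrArg (fun f : MulAut K => (f ⟨k, hk⟩ : G)) hg
    simp only [MulAut.conjNormal_apply, MulAut.one_apply] at this
    exact (mul_inv_eq_iff_eq_mul.1 this).symm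
  have cA : Nat.card (MulAut K) = 12096 := (Nat.card_congr (MulAut.congr e).toEquiv).trans aQ
  have : Finite (MulAut K) := Nat.finite_of_card_ne_zero (by rw [cA]; norm_num)
  exact ⟨(MulEquiv.ofBijective _ ((Nat.bijective_iff_injective_and_card _).2
    ⟨hi, h.trans cA.symm⟩)).trans (MulAut.congr e)⟩

theorem uniq {G : Type u} [Group G] [Finite G] (h : Nat.card G = 12096)
    (hs : ∀ g : G, g ^ 7 = 1 ∨ g ^ 8 = 1 ∨ g ^ 12 = 1) :
    Nonempty (G ≃* MulAut (PSU 3 (GaloisField 3 2) 3)) := by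
  letI : Fintype (GaloisField 3 2) := Fintype.ofFinite _
  have hF : Fintype.card (GaloisField 3 2) = 9 := by
    rw [← Nat.card_eq_fintype_card, GaloisField.card 3 2 (by norm_num)]; rfl
  obtain ⟨e⟩ := Agent.S1057.result (F := ZMod 2) rfl hF
  have := Agent.S0283.result (q := 3) hF 3 le_rfl (by norm_num)
  have h1 := H29.u33_card hF
  have : Finite (PSU 3 (GaloisField 3 2) 3) := Nat.finite_of_card_ne_zero (by rw [h1]; norm_num)
  refine aut h1 (fun g => ?_) ?_ h hs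
  · obtain ⟨g, rfl⟩ := e.surjective g
    simp only [← map_pow, MulEquiv.map_eq_one_iff, Subtype.ext_iff (a1 := g ^ _)]
    exact H29.sp (F := ZMod 2) rfl g
  · rw [Agent.S0815.result 3 1 le_rfl (q := 3) rfl hF 3 le_rfl (by norm_num), h1]
    rfl

end H4.UG
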